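import Cfsg.Agent.H605.PSLTwoIndex
import Cfsg.Agent.H17.IFSp.LR

/-!
# S5719, `PSL_4(q)`, `q` odd, piece (Dickson) of helper358 (helper411)

`exists_unip` : a subgroup of `SL₂(q)`, `q` odd, of order `> q + 1` without elements `y` with `y² = -1` contains a
transvection.
-/

set_option autoImplicit false

namespace Cfsg.Agent.H411.L4

open Matrix Subgroup
open Cfsg.Agent.ClassicalGeometry
open Cfsg.Agent.H17.IFSp (sl2_invol)

variable {F : Type*} [Field F]

/-- elements of order `p` -/
theorem unip_of_pow {p : ℕ} [Fact p.Prime] [CharP F p] {t : Matrix (Fin 2) (Fin 2) F} (ht : t ^ p = 1) :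
    (t - 1) * (t - 1) = 0 := by
  have hnil : IsNilpotent (t - 1) :=
    ⟨p, by rw [sub_pow_char_of_commute p (Commute.one_right t), ht, one_pow, sub_self]⟩
  have h1 : (t - 1).trace = 0 := (Matrix.isNilpotent_trace_of_isNilpotent hnil).eq_zero
  have h2 : (t - 1).det = 0 := by
    obtain ⟨k, hk⟩ := hnil
    have h3 := congrArg Matrix.det hk
    rw [Matrix.det_pow, Matrix.det_zero] at h3
    exact eq_zero_of_pow_eq_zero h3
  set N := t - 1 with hN
  rw [trace_fin_two] at h1
  rw [det_fin_two] at h2
  ext i j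
  rw [Matrix.mul_apply, Fin.sum_univ_two]
  fin_cases i <;> fin_cases j
  · show N 0 0 * N 0 0 + N 0 1 * N 1 0 = 0
    linear_combination N 0 0 * h1 - h2
  · show N 0 0 * N 0 1 + N 0 1 * N 1 1 = 0
    linear_combination N 0 1 * h1
  · show N 1 0 * N 0 0 + N 1 1 * N 1 0 = 0
    linear_combination N 1 0 * h1
  · show N 1 0 * N 0 1 + N 1 1 * N 1 1 = 0
    linear_combination N 1 1 * h1 - h2

/-- **P4 (Dickson)** in the form of helper358 -/
theorem exists_unip [Fintype F] (h2 : (2 : F) ≠ 0) (H : Subgroup (SpecialLinearGroup (Fin 2) F))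
    (hno : ∀ y ∈ H, (y : Matrix (Fin 2) (Fin 2) F) * y ≠ -1) (hc : Fintype.card F + 1 < Nat.card H) :
    ∃ b ∈ H, b ≠ 1 ∧ ((b : Matrix (Fin 2) (Fin 2) F) - 1) * ((b : Matrix (Fin 2) (Fin 2) F) - 1) = 0 := by
  classical
  obtain ⟨p, hp⟩ := CharP.exists F
  have hpF : Fact p.Prime := ⟨CharP.char_is_prime F p⟩
  let π : SpecialLinearGroup (Fin 2) F →* ProjectiveSpecialLinearGroup (Fin 2) F :=
    QuotientGroup.mk' (Subgroup.center (SpecialLinearGroup (Fin 2) F))
  have hodd : Odd (Fintype.card F) := by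
    rcases Nat.even_or_odd (Fintype.card F) with h | h
    · exfalso
      apply h2
      have h3 : ringChar F = 2 := FiniteField.even_card_iff_char_two.2 (Nat.even_iff.1 h)
      have h4 := ringChar.Nat.cast_ringChar (R := F)
      rw [h3] at h4
      exact_mod_cast h4
    · exact h
  set q := Fintype.card F with hq
  have hq1 : 1 < q := Fintype.one_lt_card
  have hq3 : 3 ≤ q := by
    rcases hodd with ⟨r, hr⟩
    omega
  have hcen : ∀ z : SpecialLinearGroup (Fin 2) F, π z = 1 → z = 1 ∨ z = -1 := by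
    intro z hz
    exact PSL2Basic.mem_center_SL2_iff.1 ((QuotientGroup.eq_one_iff z).1 hz)
  have hm1 : π (-1) = 1 := (QuotientGroup.eq_one_iff _).2 (PSL2Basic.mem_center_SL2_iff.2 (Or.inr rfl))
  -- the image has odd order
  have hN2 : ¬ 2 ∣ Nat.card (H.map π) := by
    intro h
    have : Fact (Nat.Prime 2) := ⟨Nat.prime_two⟩
    obtain ⟨t, ht⟩ := exists_prime_orderOf_dvd_card' (G := H.map π) 2 h
    obtain ⟨y, hy, hyt⟩ := t.2
    have h3 : t.1 * t.1 = 1 := by
      have h4 := pow_orderOf_eq_one t
      rw [ht, pow_two] at h4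
      exact congrArg Subtype.val h4
    have ht1 : t.1 ≠ 1 := by
      intro h4
      have h5 : t = 1 := Subtype.ext h4
      rw [h5, orderOf_one] at ht
      exact absurd ht (by norm_num)
    rw [← hyt, ← map_mul] at h3
    rcases hcen _ h3 with h4 | h4
    · by_cases h5 : y = 1
      · rw [h5, map_one] at hyt
        exact ht1 hyt.symm
      · have h6 := sl2_invol h2 h4 h5
        rw [h6, hm1] at hyt
        exact ht1 hyt.symm
    · exact hno y hy (congrArg Subtype.val h4)
  -- the order of the image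
  have hcard : Nat.card H ≤ 2 * Nat.card (H.map π) := by
    let f := π.subgroupMap H
    have hf : Function.Surjective f := π.subgroupMap_surjective H
    have h3 := f.ker.card_mul_index
    rw [Subgroup.index_ker, MonoidHom.range_eq_top.2 hf, Subgroup.card_top] at h3
    rw [← h3]
    apply Nat.mul_le_mul_right
    refine le_trans ?_ (show Nat.card Bool ≤ 2 by rw [Nat.card_eq_fintype_card, Fintype.card_bool])
    refine Nat.card_le_card_of_injective (fun g : f.ker => decide (g.1.1 = 1)) ?_
    intro g g' hgg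
    have hgg' : decide (g.1.1 = 1) = decide (g'.1.1 = 1) := hgg
    have h4 : g.1.1 = 1 ↔ g'.1.1 = 1 := by simpa using hgg'
    have h5 : ∀ g : f.ker, g.1.1 = 1 ∨ g.1.1 = -1 := by
      intro g
      apply hcen
      have h6 : f g.1 = 1 := g.2
      exact congrArg Subtype.val h6
    apply Subtype.ext
    apply Subtype.ext
    by_cases h6 : g.1.1 = 1
    · rw [h6, h4.1 h6]
    · rw [(h5 g).resolve_left h6, (h5 g').resolve_left fun h7 => h6 (h4.2 h7)]
  set N := Nat.card (H.map π) with hN
  have hNpos : 0 < N := Nat.card_pos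
  have hg : Nat.gcd 2 (q - 1) = 2 := by
    apply Nat.gcd_eq_left
    rcases hodd with ⟨r, hr⟩
    exact ⟨r, by omega⟩
  -- the order is divisible by `p`
  have key : p ∣ N := by
    rcases S0799.result (F := F) hq.symm p (H.map π) with ⟨k, hk, h⟩ | ⟨P, L, hL, ⟨f⟩⟩ | ⟨⟨f⟩⟩ | ⟨⟨f⟩⟩ | ⟨⟨f⟩⟩ |
      ⟨E, iE, iE', m, hm, h⟩
    · exfalso
      rw [hg] at hk
      have hk' : k ≤ (q + 1) / 2 := by
        rcases hk with hk | hk
        · exact Nat.le_of_dvd (by omega) hk
        · have := Nat.le_of_dvd (by omega) hk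
          omega
      rcases h with ⟨-, h⟩ | ⟨⟨f⟩⟩
      · rw [← hN] at h
        omega
      · have h3 : N = 2 * k := by rw [hN, Nat.card_congr f.toEquiv, DihedralGroup.nat_card]
        exact hN2 ⟨k, h3⟩
    · by_contra hpN
      have hi := H436.TT.index_normalizer p P
      set NP := Subgroup.normalizer ((P : Subgroup (Matrix.ProjectiveSpecialLinearGroup (Fin 2) F)) :
        Set (Matrix.ProjectiveSpecialLinearGroup (Fin 2) F)) with hNP
      have hb : Nat.card NP * 2 = q * (q - 1) := by
        have h2 : Nat.card NP * (q + 1) * Nat.gcd 2 (q - 1) = q * (q ^ 2 - 1) := by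
          rw [← hi, Subgroup.card_mul_index]
          exact PSL2Basic.card_PSL2_gcd _
        have h3 : q ^ 2 - 1 = (q - 1) * (q + 1) := by
          have := Nat.sq_sub_sq q 1
          rw [one_pow] at this
          rw [this]; ring
        rw [h3, hg] at h2
        refine Nat.eq_of_mul_eq_mul_right (show 0 < q + 1 by omega) ?_
        calc _ = Nat.card NP * (q + 1) * 2 := by ring
          _ = _ := by rw [h2]; ring
      have hNL : N ∣ Nat.card NP := by
        rw [hN, Nat.card_congr f.toEquiv]
        exact Subgroup.card_dvd_of_le hL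
      have h3 : N ∣ q * (q - 1) := by
        rw [← hb]
        exact Dvd.dvd.mul_right hNL 2
      have hcop : Nat.Coprime N q := by
        obtain ⟨n, -, hn⟩ := FiniteField.card F p
        rw [hq, hn]
        exact Nat.Coprime.pow_right _ ((Nat.Prime.coprime_iff_not_dvd hpF.out).2 hpN).symm
      have h4 : N ∣ q - 1 := hcop.dvd_of_dvd_mul_left h3
      have h5 : 2 * N ∣ q - 1 := by
        refine Nat.Coprime.mul_dvd_of_dvd_of_dvd ?_ ?_ h4
        · exact (Nat.Prime.coprime_iff_not_dvd Nat.prime_two).2 hN2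
        · rcases hodd with ⟨r, hr⟩
          exact ⟨r, by omega⟩
      have h6 := Nat.le_of_dvd (by omega) h5
      omega
    · exact absurd ⟨6, by rw [hN, Nat.card_congr f.toEquiv, H605.PSLTwoIndex.card_alt4]⟩ hN2
    · exact absurd ⟨12, by rw [hN, Nat.card_congr f.toEquiv, H605.PSLTwoIndex.card_perm4]⟩ hN2
    · exact absurd ⟨30, by rw [hN, Nat.card_congr f.toEquiv, H605.PSLTwoIndex.card_alt5]⟩ hN2
    · exfalso
      have hs : 2 ≤ Fintype.card E := Fintype.one_lt_card
      have hm0 : m ≠ 0 := by
        rintro rfl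
        rw [pow_zero] at hm
        omega
      have hE : Odd (Fintype.card E) := by
        rcases Nat.even_or_odd (Fintype.card E) with h3 | h3
        · exfalso
          have h4 := h3.pow_of_ne_zero hm0
          rw [hm] at h4
          exact (Nat.not_even_iff_odd.2 hodd) h4
        · exact h3
      obtain ⟨r, hr⟩ := hE
      have hsq : Fintype.card E ^ 2 - 1 = 4 * (r * (r + 1)) := by
        rw [hr]
        have : (2 * r + 1) ^ 2 = 4 * (r * (r + 1)) + 1 := by ring
        omega
      rcases h with ⟨⟨f⟩⟩ | ⟨⟨f⟩⟩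
      · have h3 : N * Nat.gcd 2 (Fintype.card E - 1) = Fintype.card E * (Fintype.card E ^ 2 - 1) := by
          rw [hN, Nat.card_congr f.toEquiv]
          exact PSL2Basic.card_PSL2_gcd _
        rw [show Nat.gcd 2 (Fintype.card E - 1) = 2 by
          apply Nat.gcd_eq_left
          exact ⟨r, by omega⟩, hsq] at h3
        refine hN2 ⟨Fintype.card E * (r * (r + 1)), ?_⟩
        nlinarith
      · have h3 : N = Fintype.card E * (Fintype.card E ^ 2 - 1) := by
          rw [hN, Nat.card_congr f.toEquiv, H418.PglNse.card_pgl]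
        rw [hsq] at h3
        exact hN2 ⟨Fintype.card E * (2 * (r * (r + 1))), by rw [h3]; ring⟩
  have hpH : p ∣ Nat.card H := key.trans (Subgroup.card_map_dvd H π)
  obtain ⟨b, hb⟩ := exists_prime_orderOf_dvd_card' (G := H) p hpH
  refine ⟨b.1, b.2, ?_, ?_⟩
  · intro h
    have h3 : b = 1 := Subtype.ext h
    rw [h3, orderOf_one] at hb
    exact hpF.out.one_lt.ne hb
  · apply unip_of_pow (p := p)
    have h3 : b.1 ^ p = 1 := by
      have h4 := pow_orderOf_eq_one b
      rw [hb] at h4
      exact congrArg Subtype.val h4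
    have h4 := congrArg Subtype.val h3
    exact h4

end Cfsg.Agent.H411.L4
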