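import Cfsg.Agent.H17.IFSp.LR

/-!
# S5719, `PSL_4(q)`, `q` odd, piece (LR) of helper358: two opposite transvections generate an element `y` with `y² = -1`
(helper411)
-/

set_option autoImplicit false

namespace Cfsg.Agent.H411.L4

open Matrix
open scoped MatrixGroups
open Cfsg.Agent.H17.IFSp (closure_coe_top sl2_invol dcj)

variable {F : Type*} [Field F]

/-- a subgroup of `SL₂` of order divisible by `8` contains `y` with `y² = -1` -/
theorem exists_sq_of_dvd (h2 : (2 : F) ≠ 0) [Finite F] (C : Subgroup SL(2, F)) (h8 : 8 ∣ Nat.card C) :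
    ∃ y ∈ C, y * y = -1 := by
  have : Fact (Nat.Prime 2) := ⟨Nat.prime_two⟩
  obtain ⟨P, hP⟩ := Sylow.exists_subgroup_card_pow_prime (G := C) 2 (n := 3) (by
    norm_num
    exact h8)
  have hex : ∃ g ∈ P, g.1 ≠ 1 ∧ g.1 ≠ -1 := by
    by_contra hcon
    push Not at hcon
    have h3 : Nat.card P ≤ Nat.card Bool := by
      classical
      refine Nat.card_le_card_of_injective (fun g : P => decide (g.1.1 = 1)) ?_
      intro g g' hgg
      have hgg' : decide (g.1.1 = 1) = decide (g'.1.1 = 1) := hgg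
      have h4 : g.1.1 = 1 ↔ g'.1.1 = 1 := by simpa using hgg'
      apply Subtype.ext
      apply Subtype.ext
      by_cases h5 : g.1.1 = 1
      · rw [h5, h4.1 h5]
      · rw [hcon g.1 g.2 h5, hcon g'.1 g'.2 fun h6 => h5 (h4.2 h6)]
    rw [hP, Nat.card_eq_fintype_card, Fintype.card_bool] at h3
    norm_num at h3
  obtain ⟨g, hgP, hg1, hg2⟩ := hex
  have h8' : g ^ 8 = 1 := by
    have h3 : (⟨g, hgP⟩ : P) ^ Nat.card P = 1 := pow_card_eq_one'
    rw [hP] at h3
    exact congrArg Subtype.val h3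
  have h8g : (g.1 ^ 4) * (g.1 ^ 4) = 1 := by
    rw [← pow_add]
    exact congrArg Subtype.val h8'
  have hsq : g.1 * g.1 ≠ 1 := fun h => hg2 (sl2_invol h2 h hg1)
  by_cases h4 : g.1 ^ 4 = 1
  · refine ⟨g.1, g.2, ?_⟩
    apply sl2_invol h2 _ hsq
    rw [← h4, ← pow_two, ← pow_two, ← pow_mul]
  · refine ⟨g.1 ^ 2, C.pow_mem g.2 2, ?_⟩
    rw [← pow_add]
    exact sl2_invol h2 h8g h4

theorem lr_one [Finite F] (h2 : (2 : F) ≠ 0) {a : F} (ha : a ≠ 0) (H : Subgroup SL(2, F))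
    (hl : ∀ g : SL(2, F), g.1 = !![1, 0; 1, 1] → g ∈ H) (hu : ∀ g : SL(2, F), g.1 = !![1, a; 0, 1] → g ∈ H) :
    ∃ y ∈ H, y * y = (-1 : SL(2, F)) := by
  classical
  set K : Subfield F := Subfield.closure ({a} : Set F) with hK
  let a' : K := ⟨a, Subfield.subset_closure rfl⟩
  let _ : Fintype K := Fintype.ofFinite K
  have hgen : Subfield.closure ({a'} : Set K) = ⊤ := closure_coe_top a
  have h2K : (2 : K) ≠ 0 := by
    intro h0
    apply h2
    have := congrArg K.subtype h0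
    rwa [map_ofNat, map_zero] at this
  have ha'0 : a' ≠ 0 := fun h0 => ha (congrArg (fun x : K => (x : F)) h0)
  let Psi : SL(2, K) →* SL(2, F) := Matrix.SpecialLinearGroup.map K.subtype
  have hPsi : Psi (-1) = -1 := by
    apply Subtype.ext
    ext i j
    fin_cases i <;> fin_cases j <;> simp [Psi]
  have hle : Subgroup.closure {g : SL(2, K) | (g : Matrix (Fin 2) (Fin 2) K) = !![1, 0; 1, 1] ∨
      (g : Matrix (Fin 2) (Fin 2) K) = !![1, a'; 0, 1]} ≤ H.comap Psi := by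
    rw [Subgroup.closure_le]
    rintro g (hg | hg)
    · apply hl
      rw [Matrix.SpecialLinearGroup.map_apply_coe, RingHom.mapMatrix_apply, hg]
      ext i j
      fin_cases i <;> fin_cases j <;> simp
    · apply hu
      rw [Matrix.SpecialLinearGroup.map_apply_coe, RingHom.mapMatrix_apply, hg]
      ext i j
      fin_cases i <;> fin_cases j <;> simp [a']
  have key : ∃ y ∈ Subgroup.closure {g : SL(2, K) | (g : Matrix (Fin 2) (Fin 2) K) = !![1, 0; 1, 1] ∨
      (g : Matrix (Fin 2) (Fin 2) K) = !![1, a'; 0, 1]}, y * y = (-1 : SL(2, K)) := by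
    rcases Cfsg.Agent.S0801.result (F := K) h2K a' ha'0 hgen with ⟨htop, -⟩ | ⟨-, -, h120⟩
    · rw [htop]
      refine ⟨⟨!![0, 1; -1, 0], by rw [det_fin_two_of]; ring⟩, Subgroup.mem_top _, ?_⟩
      apply Subtype.ext
      show !![(0 : K), 1; -1, 0] * !![(0 : K), 1; -1, 0] = (-1 : Matrix (Fin 2) (Fin 2) K)
      rw [Matrix.mul_fin_two]
      ext i j
      fin_cases i <;> fin_cases j <;> simp
    · exact exists_sq_of_dvd h2K _ (by rw [h120]; norm_num)
  obtain ⟨y, hy, hyy⟩ := key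
  exact ⟨Psi y, hle hy, by rw [← map_mul, hyy, hPsi]⟩

/-- **(LR)** two opposite transvections of `SL₂(q)`, `q` odd, generate a group containing `y` with `y² = -1` -/
theorem lr_sl2 [Finite F] (h2 : (2 : F) ≠ 0) {a b : F} (ha : a ≠ 0) (hb : b ≠ 0) (H : Subgroup SL(2, F))
    (hl : ∀ g : SL(2, F), g.1 = !![1, 0; b, 1] → g ∈ H) (hu : ∀ g : SL(2, F), g.1 = !![1, a; 0, 1] → g ∈ H) :
    ∃ y ∈ H, y * y = (-1 : SL(2, F)) := by
  obtain ⟨y, hy, hyy⟩ := lr_one h2 (a := a * b) (mul_ne_zero ha hb) (H.comap (dcj hb)) (by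
    intro g hg
    apply hl
    show !![g.1 0 0, b⁻¹ * g.1 0 1; b * g.1 1 0, g.1 1 1] = _
    rw [hg]
    ext i j
    fin_cases i <;> fin_cases j <;> simp) (by
    intro g hg
    apply hu
    show !![g.1 0 0, b⁻¹ * g.1 0 1; b * g.1 1 0, g.1 1 1] = _
    rw [hg]
    have e1 : b⁻¹ * (a * b) = a := by rw [mul_comm a b, inv_mul_cancel_left₀ hb]
    ext i j
    fin_cases i <;> fin_cases j <;> simp [e1])
  have h3 : dcj hb (-1 : SL(2, F)) = -1 := by
    apply Subtype.ext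
    show !![(-1 : Matrix (Fin 2) (Fin 2) F) 0 0, b⁻¹ * (-1 : Matrix (Fin 2) (Fin 2) F) 0 1;
      b * (-1 : Matrix (Fin 2) (Fin 2) F) 1 0, (-1 : Matrix (Fin 2) (Fin 2) F) 1 1] = (-1 : Matrix (Fin 2) (Fin 2) F)
    ext i j
    fin_cases i <;> fin_cases j <;> simp
  exact ⟨dcj hb y, hy, by rw [← map_mul, hyy, h3]⟩

/-- **P2 (LR)** in the form of helper358 -/
theorem exists_sq [Finite F] (h2 : (2 : F) ≠ 0) {a c : F} (ha : a ≠ 0) (hc : c ≠ 0)
    (H : Subgroup (Matrix.SpecialLinearGroup (Fin 2) F)) {x x' : Matrix.SpecialLinearGroup (Fin 2) F} (hx : x ∈ H)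
    (hx' : x' ∈ H) (hxm : (x : Matrix (Fin 2) (Fin 2) F) = !![1, a; 0, 1])
    (hxm' : (x' : Matrix (Fin 2) (Fin 2) F) = !![1, 0; c, 1]) :
    ∃ y ∈ H, (y : Matrix (Fin 2) (Fin 2) F) * y = -1 := by
  obtain ⟨y, hy, hyy⟩ := lr_sl2 h2 ha hc H (fun g hg => by
    have : g = x' := Subtype.ext (hg.trans hxm'.symm)
    rw [this]; exact hx') (fun g hg => by
    have : g = x := Subtype.ext (hg.trans hxm.symm)
    rw [this]; exact hx)
  refine ⟨y, hy, ?_⟩
  have h3 := congrArg Subtype.val hyy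
  exact h3

end Cfsg.Agent.H411.L4
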